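import Cfsg.Agent.H883.BR.Fam
import Cfsg.Agent.H666.TraceZero

/-!
# HUB BR, F-OmO-ext: the highest weight vector of `𝔰𝔬(V)`, odd characteristic

`V` a finite dimensional space with a nondegenerate symmetric form `B`, `dim V ≥ 4`, `ρ : G → O(V)`, `U ≤ G` a
`p`-group, `p = char K` odd. `wd B u v = u ⊗ B(v,·) - v ⊗ B(u,·)` (`u ∧ v`).

* `exists_fix_mod`: fixed vectors of `U` in a subquotient.
* `ext_so`: if the fixed points of `U` in `𝔰𝔬(V)` are a line `K w`, then `w = v0 ∧ v1` with a totally singular plane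
  `⟨v0, v1⟩`, and `ρ z = 1 + c w`, `c ≠ 0`, for all `1 ≠ z ∈ Z(U)`.
* `ext_so_fam`: the field `ext` of `Fam` (with `a` a root `v0 ∧ v1` in place of the last line).
-/

set_option autoImplicit false
set_option linter.unusedSectionVars false

namespace Cfsg.Agent.H16.BR

open Cfsg.Agent.H883.BR Module

universe u v w

section wd

variable {K : Type u} {V : Type v} [Field K] [AddCommGroup V] [Module K V] (B : LinearMap.BilinForm K V)

/-- `u ∧ v` -/
def wd (u v : V) : Module.End K V := (B v).smulRight u - (B u).smulRight v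

theorem wd_apply (u v x : V) : wd B u v x = B v x • u - B u x • v := rfl

/-- skew with respect to `B` -/
def Sk (X : Module.End K V) : Prop := ∀ x y, B (X x) y = - B x (X y)

variable {B}

theorem sk_wd (hs : ∀ x y, B x y = B y x) (u v : V) : Sk B (wd B u v) := by
  intro x y
  rw [wd_apply, wd_apply, map_sub, map_sub, map_smul, map_smul, map_smul, map_smul, LinearMap.sub_apply,
    LinearMap.smul_apply, LinearMap.smul_apply, smul_eq_mul, smul_eq_mul, smul_eq_mul, smul_eq_mul, hs x u,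
    hs x v]
  ring

theorem wd_add (u v v' : V) : wd B u (v + v') = wd B u v + wd B u v' := by
  ext x
  rw [LinearMap.add_apply, wd_apply, wd_apply, wd_apply, map_add, LinearMap.add_apply, add_smul, smul_add]
  abel

theorem wd_smul (u v : V) (c : K) : wd B u (c • v) = c • wd B u v := by
  ext x
  rw [LinearMap.smul_apply, wd_apply, wd_apply, map_smul, LinearMap.smul_apply, smul_eq_mul, mul_smul, smul_sub,
    smul_comm c (B u x) v]

theorem wd_swap (u v : V) : wd B u v = - wd B v u := by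
  ext x
  rw [LinearMap.neg_apply, wd_apply, wd_apply]
  abel

theorem wd_self (u : V) : wd B u u = 0 := by
  ext x
  rw [wd_apply, LinearMap.zero_apply, sub_self]

theorem exists_one (hn : ∀ u : V, (∀ x, B u x = 0) → u = 0) {u : V} (hu : u ≠ 0) : ∃ x, B u x = 1 := by
  by_contra hcon
  push Not at hcon
  apply hu
  refine hn u fun x => ?_
  by_contra h
  apply hcon ((B u x)⁻¹ • x)
  rw [map_smul, smul_eq_mul, inv_mul_cancel₀ h]

theorem of_wd_eq_zero (hn : ∀ u : V, (∀ x, B u x = 0) → u = 0) {u v : V} (hu : u ≠ 0) (h : wd B u v = 0) :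
    ∃ c : K, v = c • u := by
  obtain ⟨x, hx⟩ := exists_one hn hu
  have h1 := LinearMap.congr_fun h x
  rw [wd_apply, hx, one_smul, LinearMap.zero_apply, sub_eq_zero] at h1
  exact ⟨_, h1.symm⟩

/-- the square of `u ∧ v` for a totally singular plane -/
theorem wd_mul_self {u v : V} (huu : B u u = 0) (huv : B u v = 0) (hvu : B v u = 0) (hvv : B v v = 0) :
    wd B u v * wd B u v = 0 := by
  ext x
  rw [Module.End.mul_apply, wd_apply B u v x, map_sub, map_smul, map_smul, wd_apply, wd_apply, huu, huv, hvu,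
    hvv]
  simp

end wd

section fix

variable {K : Type u} {V : Type v} [Field K] [AddCommGroup V] [Module K V] {p : ℕ} [Fact p.Prime] [CharP K p]

/-- fixed vectors of a `p`-group in `(T + S) / S` -/
theorem exists_fix_mod {P : Type w} [Group P] [Finite P] (hP : IsPGroup p P) (ρ : P →* Module.End K V)
    (S T : Submodule K V) (hS : ∀ g, ∀ s ∈ S, ρ g s ∈ S) (hT : ∀ g, ∀ s ∈ T, ρ g s ∈ T) (h : ¬ T ≤ S) :
    ∃ x ∈ T, x ∉ S ∧ ∀ g, ρ g x - x ∈ S := by
  let ρ' : Representation K P (V ⧸ S) :=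
    { toFun := fun g => S.mapQ S (ρ g) (fun s hs => hS g s hs)
      map_one' := by
        refine LinearMap.ext fun x => ?_
        obtain ⟨v, rfl⟩ := S.mkQ_surjective x
        change S.mkQ (ρ 1 v) = S.mkQ v
        rw [map_one, Module.End.one_apply]
      map_mul' := by
        intro g h
        refine LinearMap.ext fun x => ?_
        obtain ⟨v, rfl⟩ := S.mkQ_surjective x
        change S.mkQ (ρ (g * h) v) = S.mkQ (ρ g (ρ h v))
        rw [map_mul, Module.End.mul_apply] }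
  have hρ' : ∀ g v, ρ' g (S.mkQ v) = S.mkQ (ρ g v) := fun _ _ => rfl
  obtain ⟨y, hy, hy0, hyf⟩ := Cfsg.Agent.H666.exists_fixed_ne_zero hP ρ' (T.map S.mkQ) (by
    rintro g _ ⟨t, ht, rfl⟩
    exact ⟨ρ g t, hT g t ht, rfl⟩) (by
    intro h1
    refine h fun t ht => (Submodule.Quotient.mk_eq_zero S).1 ?_
    have h2 : S.mkQ t ∈ T.map S.mkQ := ⟨t, ht, rfl⟩
    rw [h1, Submodule.mem_bot] at h2
    exact h2)
  obtain ⟨x, hx, rfl⟩ := hy
  refine ⟨x, hx, fun h1 => hy0 ((Submodule.Quotient.mk_eq_zero S).2 h1), fun g => ?_⟩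
  have h1 := hyf g
  rw [hρ', ← sub_eq_zero, ← map_sub] at h1
  exact (Submodule.Quotient.mk_eq_zero S).1 h1

end fix

section main

variable {K : Type u} {V : Type v} [Field K] [AddCommGroup V] [Module K V] [FiniteDimensional K V]
  {B : LinearMap.BilinForm K V} {G : Type w} [Group G] {ρ : G →* Module.End K V}

theorem rho_inv (g : G) (v : V) : ρ g (ρ g⁻¹ v) = v := by
  rw [← Module.End.mul_apply, ← map_mul, mul_inv_cancel, map_one, Module.End.one_apply]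

theorem adj (hρ : ∀ g v w, B (ρ g v) (ρ g w) = B v w) (g : G) (v w : V) : B v (ρ g⁻¹ w) = B (ρ g v) w := by
  rw [← hρ g v (ρ g⁻¹ w), rho_inv]

theorem ad_wd (hρ : ∀ g v w, B (ρ g v) (ρ g w) = B v w) (g : G) (u v : V) :
    ad ρ g (wd B u v) = wd B (ρ g u) (ρ g v) := by
  refine LinearMap.ext fun x => ?_
  change ρ g (wd B u v (ρ g⁻¹ x)) = _
  rw [wd_apply, wd_apply, map_sub, map_smul, map_smul, adj hρ, adj hρ]

/-- the orthogonal space of two vectors has codimension at most two -/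
theorem exists_orth (h4 : 4 ≤ finrank K V) (u v x : V) :
    ¬ LinearMap.ker ((B u).prod (B v)) ≤ Submodule.span K {x} := by
  intro h
  have h1 := LinearMap.finrank_range_add_finrank_ker ((B u).prod (B v))
  have h2 : finrank K (LinearMap.range ((B u).prod (B v))) ≤ 2 := by
    refine (Submodule.finrank_le _).trans ?_
    rw [Module.finrank_prod, Module.finrank_self]
  have h3 : finrank K (Submodule.span K {x}) ≤ 1 := by
    have := finrank_span_le_card (R := K) ({x} : Set V)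
    simpa using this
  have h4 := (Submodule.finrank_mono h).trans h3
  omega

theorem mem_orth {u v x : V} : x ∈ LinearMap.ker ((B u).prod (B v)) ↔ B u x = 0 ∧ B v x = 0 := by
  rw [LinearMap.mem_ker]
  exact ⟨fun h => ⟨congrArg Prod.fst h, congrArg Prod.snd h⟩, fun h => Prod.ext h.1 h.2⟩

/-- `z` of odd order with `(z - z⁻¹)² = 0` -/
theorem sq_eq_zero (h2 : (2 : K) ≠ 0) {z : G} {m : ℕ} (hm : Odd m) (hz : z ^ m = 1)
    (h : (ρ z - ρ z⁻¹) * (ρ z - ρ z⁻¹) = 0) : (ρ z - 1) * (ρ z - 1) = 0 := by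
  have hzz : ρ z * ρ z⁻¹ = 1 := by rw [← map_mul, mul_inv_cancel, map_one]
  have hzz' : ρ z⁻¹ * ρ z = 1 := by rw [← map_mul, inv_mul_cancel, map_one]
  have hzm : ρ z ^ m = 1 := by rw [← map_pow, hz, map_one]
  have key : ∀ A : Module.End K V, A * (ρ z + 1) = 0 → A = 0 := by
    intro A hA
    have h1 : A * ρ z = -A := by
      rw [mul_add, mul_one] at hA
      exact eq_neg_of_add_eq_zero_left hA
    have h3 : ∀ k : ℕ, A * ρ z ^ k = (-1 : K) ^ k • A := by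
      intro k
      induction k with
      | zero => simp
      | succ k ih => rw [pow_succ, ← mul_assoc, ih, smul_mul_assoc, h1, pow_succ, mul_smul, neg_smul, one_smul]
    have h4 := h3 m
    rw [hzm, mul_one, hm.neg_one_pow, neg_smul, one_smul] at h4
    have h5 : (2 : K) • A = 0 := by
      rw [two_smul]
      nth_rewrite 1 [h4]
      exact neg_add_cancel A
    exact (smul_eq_zero.1 h5).resolve_left h2
  refine key _ (key _ ?_)
  have h3 : (ρ z - 1) * (ρ z - 1) * (ρ z + 1) * (ρ z + 1) =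
      (ρ z - ρ z⁻¹) * (ρ z - ρ z⁻¹) * (ρ z * ρ z) := by
    have e1 : (ρ z - ρ z⁻¹) * (ρ z - ρ z⁻¹) * (ρ z * ρ z) = ρ z * ρ z * (ρ z * ρ z) - 2 • (ρ z * ρ z) + 1 := by
      have a1 : (ρ z - ρ z⁻¹) * (ρ z - ρ z⁻¹) = ρ z * ρ z - 2 • 1 + ρ z⁻¹ * ρ z⁻¹ := by
        rw [sub_mul, mul_sub, mul_sub, hzz, hzz', two_smul]
        abel
      rw [a1, add_mul, sub_mul, smul_mul_assoc, one_mul, mul_assoc (ρ z⁻¹) (ρ z⁻¹), ← mul_assoc (ρ z⁻¹) (ρ z),
        hzz', one_mul, hzz']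
    rw [e1]
    have e2 : (ρ z - 1) * (ρ z - 1) * (ρ z + 1) * (ρ z + 1) = ρ z * ρ z * (ρ z * ρ z) - 2 • (ρ z * ρ z) + 1 := by
      noncomm_ring
    rw [e2]
  rw [h3, h, zero_mul]

/-- **The fixed line of `U` in `𝔰𝔬(V)`.** -/
theorem ext_so {p : ℕ} [Fact p.Prime] [CharP K p] (hp : p ≠ 2) (h4 : 4 ≤ finrank K V)
    (hs : ∀ x y, B x y = B y x) (hn : ∀ u : V, (∀ x, B u x = 0) → u = 0) [Finite G]
    (hρ : ∀ g v w, B (ρ g v) (ρ g w) = B v w) (hinj : Function.Injective ρ) {U : Subgroup G}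
    (hU : IsPGroup p U) {w0 : Module.End K V}
    (hfix : ∀ X : Module.End K V, (Sk B X ∧ ∀ u ∈ U, ad ρ u X = X) ↔ ∃ c : K, X = c • w0) :
    ∃ v0 v1 : V, v0 ≠ 0 ∧ B v0 v0 = 0 ∧ B v0 v1 = 0 ∧ B v1 v0 = 0 ∧ B v1 v1 = 0 ∧ w0 = wd B v0 v1 ∧
      ∀ z ∈ U, z ≠ 1 → (∀ u ∈ U, u * z = z * u) → ∃ c : K, c ≠ 0 ∧ ρ z = 1 + c • w0 := by
  classical
  have h2 : (2 : K) ≠ 0 := by
    intro h
    have h1 : ((2 : ℕ) : K) = 0 := by exact_mod_cast h
    rw [CharP.cast_eq_zero_iff K p] at h1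
    exact hp ((Nat.prime_dvd_prime_iff_eq (Fact.out : p.Prime) Nat.prime_two).1 h1)
  -- the space of the fixed points is a line
  have hline : ∀ X Y : Module.End K V, Sk B X → (∀ u ∈ U, ad ρ u X = X) → X ≠ 0 → Sk B Y →
      (∀ u ∈ U, ad ρ u Y = Y) → ∃ c : K, Y = c • X := by
    intro X Y hX1 hX2 hX0 hY1 hY2
    obtain ⟨a, ha⟩ := (hfix X).1 ⟨hX1, hX2⟩
    obtain ⟨b, hb⟩ := (hfix Y).1 ⟨hY1, hY2⟩
    have ha0 : a ≠ 0 := by
      rintro rfl
      exact hX0 (by rw [ha, zero_smul])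
    refine ⟨b * a⁻¹, ?_⟩
    rw [ha, hb, smul_smul, mul_assoc, inv_mul_cancel₀ ha0, mul_one]
  have FIX := exists_fix_mod (K := K) (V := V) (p := p) hU (ρ.comp U.subtype)
  have hker : ∀ v : V, (∀ u ∈ U, ρ u v = v) → ∀ u ∈ U, ∀ x, B v x = 0 → B v (ρ u x) = 0 := by
    intro v hv u hu x hx
    have h1 : ρ u v = v := hv u hu
    rw [← h1, hρ, hx]
  -- a fixed vector
  have hnt : Nontrivial V := by
    refine Module.nontrivial_of_finrank_pos (R := K) ?_
    omega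
  obtain ⟨v0, -, hv0, hv0f⟩ := FIX ⊥ ⊤ (by
    intro g s hs
    rw [Submodule.mem_bot] at hs ⊢
    rw [hs, map_zero]) (fun g s _ => Submodule.mem_top) (by
    rw [top_le_iff]
    exact bot_ne_top)
  replace hv0 : v0 ≠ 0 := fun h => hv0 (by rw [h]; exact Submodule.zero_mem _)
  replace hv0f : ∀ u ∈ U, ρ u v0 = v0 := by
    intro u hu
    have := hv0f ⟨u, hu⟩
    rw [Submodule.mem_bot, sub_eq_zero] at this
    exact this
  have hspan : ∀ v x : V, x ∈ Submodule.span K {v} ↔ ∃ c : K, x = c • v := by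
    intro v x
    rw [Submodule.mem_span_singleton]
    exact ⟨fun ⟨c, hc⟩ => ⟨c, hc.symm⟩, fun ⟨c, hc⟩ => ⟨c, hc.symm⟩⟩
  have hwdf : ∀ v x : V, (∀ u ∈ U, ρ u v = v) → (∀ u ∈ U, ρ u x - x ∈ Submodule.span K {v}) →
      ∀ u ∈ U, ad ρ u (wd B v x) = wd B v x := by
    intro v x hv hx u hu
    rw [ad_wd hρ, hv u hu]
    obtain ⟨c, hc⟩ := (hspan _ _).1 (hx u hu)
    rw [sub_eq_iff_eq_add] at hc
    rw [hc, wd_add, wd_smul, wd_self, smul_zero, zero_add]
  have hwd0 : ∀ v x : V, v ≠ 0 → x ∉ Submodule.span K {v} → wd B v x ≠ 0 := by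
    intro v x hv hx h
    exact hx ((hspan _ _).2 (of_wd_eq_zero hn hv h))
  have hspanU : ∀ v : V, (∀ u ∈ U, ρ u v = v) → ∀ g : U, ∀ s ∈ Submodule.span K {v},
      (ρ.comp U.subtype) g s ∈ Submodule.span K {v} := by
    intro v hv g s hs
    obtain ⟨c, rfl⟩ := (hspan _ _).1 hs
    change ρ (g : G) (c • v) ∈ _
    rw [map_smul, hv g g.2]
    exact (hspan _ _).2 ⟨c, rfl⟩
  -- `v0` is singular
  have h00 : B v0 v0 = 0 := by
    by_contra hne
    obtain ⟨v1, hv1, hv1', hv1f⟩ := FIX (Submodule.span K {(0 : V)}) (LinearMap.ker ((B v0).prod (B v0))) (by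
      exact hspanU 0 fun u _ => map_zero _) (by
      intro g s hs
      rw [mem_orth] at hs ⊢
      have := hker v0 hv0f g g.2 s hs.1
      exact ⟨this, this⟩) (exists_orth h4 v0 v0 0)
    have h0v1 : B v0 v1 = 0 := (mem_orth.1 hv1).1
    have hv10 : v1 ≠ 0 := fun h => hv1' (by rw [h]; exact Submodule.zero_mem _)
    have hv1f' : ∀ u ∈ U, ρ u v1 = v1 := by
      intro u hu
      obtain ⟨c, hc⟩ := (hspan _ _).1 (hv1f ⟨u, hu⟩)
      rw [smul_zero, sub_eq_zero] at hc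
      exact hc
    obtain ⟨x, hx, hx', hxf⟩ := FIX (Submodule.span K {v1}) (LinearMap.ker ((B v0).prod (B v1)))
      (hspanU v1 hv1f') (by
      intro g s hs
      rw [mem_orth] at hs ⊢
      exact ⟨hker v0 hv0f g g.2 s hs.1, hker v1 hv1f' g g.2 s hs.2⟩) (exists_orth h4 v0 v1 v1)
    have h0x : B v0 x = 0 := (mem_orth.1 hx).1
    have h01 : wd B v1 v0 ≠ 0 := by
      refine hwd0 v1 v0 hv10 fun h => ?_
      obtain ⟨c, hc⟩ := (hspan _ _).1 h
      apply hne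
      nth_rewrite 2 [hc]
      rw [map_smul, h0v1, smul_zero]
    obtain ⟨c, hc⟩ := hline (wd B v1 v0) (wd B v1 x) (sk_wd hs _ _)
      (hwdf v1 v0 hv1f' fun u hu => by rw [hv0f u hu, sub_self]; exact Submodule.zero_mem _) h01
      (sk_wd hs _ _) (hwdf v1 x hv1f' fun u hu => hxf ⟨u, hu⟩)
    have h3 : wd B v1 (x + (-c) • v0) = 0 := by
      rw [wd_add, wd_smul, hc, neg_smul, add_neg_cancel]
    obtain ⟨k, hk⟩ := of_wd_eq_zero hn hv10 h3
    have h5 : B v0 (x + (-c) • v0) = 0 := by rw [hk, map_smul, h0v1, smul_zero]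
    rw [map_add, h0x, map_smul, zero_add, smul_eq_mul, neg_mul, neg_eq_zero] at h5
    have hc0 : c = 0 := (mul_eq_zero.1 h5).resolve_right hne
    rw [hc0, neg_zero, zero_smul, add_zero] at hk
    exact hx' ((hspan _ _).2 ⟨k, hk⟩)
  -- `v1`
  obtain ⟨v1, hv1, hv1', hv1f⟩ := FIX (Submodule.span K {v0}) (LinearMap.ker ((B v0).prod (B v0)))
    (hspanU v0 hv0f) (by
    intro g s hs
    rw [mem_orth] at hs ⊢
    have := hker v0 hv0f g g.2 s hs.1
    exact ⟨this, this⟩) (exists_orth h4 v0 v0 v0)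
  have h01 : B v0 v1 = 0 := (mem_orth.1 hv1).1
  have h10 : B v1 v0 = 0 := by rw [hs, h01]
  have hw01 : wd B v0 v1 ≠ 0 := hwd0 v0 v1 hv0 hv1'
  have hf01 : ∀ u ∈ U, ad ρ u (wd B v0 v1) = wd B v0 v1 := hwdf v0 v1 hv0f fun u hu => hv1f ⟨u, hu⟩
  have h11 : B v1 v1 = 0 := by
    by_contra hne
    obtain ⟨x, hx, hx', hxf⟩ := FIX (Submodule.span K {v0}) (LinearMap.ker ((B v0).prod (B v1)))
      (hspanU v0 hv0f) (by
      intro g s hs'
      rw [mem_orth] at hs' ⊢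
      refine ⟨hker v0 hv0f g g.2 s hs'.1, ?_⟩
      obtain ⟨c, hc⟩ := (hspan _ _).1 (hv1f g⁻¹)
      have h6 : ρ (g : G)⁻¹ v1 = v1 + c • v0 := by
        rw [sub_eq_iff_eq_add'] at hc
        exact hc
      have h7 : B (ρ (g : G) s) v1 = B s (ρ (g : G)⁻¹ v1) := (adj hρ (g : G) s v1).symm
      change B v1 (ρ (g : G) s) = 0
      rw [hs, h7, h6, map_add, map_smul, smul_eq_mul, hs s v1, hs s v0, hs'.1, hs'.2, mul_zero, add_zero])
      (exists_orth h4 v0 v1 v0)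
    obtain ⟨c, hc⟩ := hline (wd B v0 v1) (wd B v0 x) (sk_wd hs _ _) hf01 hw01 (sk_wd hs _ _)
      (hwdf v0 x hv0f fun u hu => hxf ⟨u, hu⟩)
    have h3 : wd B v0 (x + (-c) • v1) = 0 := by
      rw [wd_add, wd_smul, hc, neg_smul, add_neg_cancel]
    obtain ⟨k, hk⟩ := of_wd_eq_zero hn hv0 h3
    have h5 : B v1 (x + (-c) • v1) = 0 := by rw [hk, map_smul, h10, smul_zero]
    rw [map_add, (mem_orth.1 hx).2, map_smul, zero_add, smul_eq_mul, neg_mul, neg_eq_zero] at h5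
    have hc0 : c = 0 := (mul_eq_zero.1 h5).resolve_right hne
    rw [hc0, neg_zero, zero_smul, add_zero] at hk
    exact hx' ((hspan _ _).2 ⟨k, hk⟩)
  -- `w0`
  have hw0f := (hfix w0).2 ⟨1, (one_smul K w0).symm⟩
  obtain ⟨c, hc⟩ := hline (wd B v0 v1) w0 (sk_wd hs _ _) hf01 hw01 hw0f.1 hw0f.2
  refine ⟨v0, c • v1, hv0, h00, by rw [map_smul, h01, smul_zero], by
    rw [map_smul, LinearMap.smul_apply, h10, smul_zero], by
    rw [map_smul, map_smul, LinearMap.smul_apply, h11, smul_zero, smul_zero], by rw [wd_smul, hc], ?_⟩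
  have hsq : w0 * w0 = 0 := by
    rw [hc, smul_mul_smul_comm, wd_mul_self h00 h01 h10 h11, smul_zero]
  intro z hz hz1 hzc
  have hX1 : Sk B (ρ z - ρ z⁻¹) := by
    intro x y
    rw [LinearMap.sub_apply, LinearMap.sub_apply, map_sub, map_sub, LinearMap.sub_apply, adj hρ z x y,
      ← adj hρ z⁻¹ x y, inv_inv]
    ring
  have hX2 : ∀ u ∈ U, ad ρ u (ρ z - ρ z⁻¹) = ρ z - ρ z⁻¹ := by
    intro u hu
    change ρ u * (ρ z - ρ z⁻¹) * ρ u⁻¹ = _
    have h5 : u * z * u⁻¹ = z := by rw [hzc u hu, mul_inv_cancel_right]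
    have h6 : u * z⁻¹ * u⁻¹ = z⁻¹ := by
      have := congrArg (·⁻¹) h5
      simpa [mul_assoc] using this
    rw [mul_sub, sub_mul, ← map_mul, ← map_mul, ← map_mul, ← map_mul, h5, h6]
  obtain ⟨d, hd⟩ := (hfix _).1 ⟨hX1, hX2⟩
  obtain ⟨m, hm⟩ := hU ⟨z, hz⟩
  have hm' : z ^ p ^ m = 1 := congrArg Subtype.val hm
  have hodd : Odd (p ^ m) := ((Fact.out : p.Prime).odd_of_ne_two hp).pow
  have hN := sq_eq_zero (ρ := ρ) h2 hodd hm' (by rw [hd, smul_mul_smul_comm, hsq, smul_zero])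
  have hzz : ρ z * ρ z⁻¹ = 1 := by rw [← map_mul, mul_inv_cancel, map_one]
  have hzz' : ρ z⁻¹ * ρ z = 1 := by rw [← map_mul, inv_mul_cancel, map_one]
  have hinv : ρ z⁻¹ = 1 - (ρ z - 1) := by
    have h5 : ρ z * (1 - (ρ z - 1)) = 1 := by
      have h6 : ρ z * (1 - (ρ z - 1)) = 1 - (ρ z - 1) * (ρ z - 1) := by noncomm_ring
      rw [h6, hN, sub_zero]
    calc ρ z⁻¹ = ρ z⁻¹ * (ρ z * (1 - (ρ z - 1))) := by rw [h5, mul_one]
      _ = 1 - (ρ z - 1) := by rw [← mul_assoc, hzz', one_mul]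
  have h5 : (2 : K) • (ρ z - 1) = d • w0 := by
    rw [← hd, hinv, two_smul]
    abel
  refine ⟨2⁻¹ * d, ?_, ?_⟩
  · intro h0
    have hd0 : d = 0 := (mul_eq_zero.1 h0).resolve_left (inv_ne_zero h2)
    rw [hd0, zero_smul] at h5
    have h6 := (smul_eq_zero.1 h5).resolve_left h2
    rw [sub_eq_zero] at h6
    exact hz1 (hinj (by rw [h6, map_one]))
  · rw [mul_smul, ← h5, smul_smul, inv_mul_cancel₀ h2, one_smul]
    abel

/-- **The field `ext` of `Fam`** for `W = 𝔰𝔬(V)` (`ι : W → End V` is the inclusion), the root element given as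
`v0 ∧ v1`. -/
theorem ext_so_fam {p : ℕ} [Fact p.Prime] [CharP K p] (hp : p ≠ 2) (h4 : 4 ≤ finrank K V)
    (hs : ∀ x y, B x y = B y x) (hn : ∀ u : V, (∀ x, B u x = 0) → u = 0) [Finite G]
    (hρ : ∀ g v w, B (ρ g v) (ρ g w) = B v w) (hinj : Function.Injective ρ) {W : Type v} [AddCommGroup W]
    [Module K W] {σ : G →* Module.End K W} (ι : W →ₗ[K] Module.End K V) (hι : Function.Injective ι)
    (hr : ∀ X, Sk B X ↔ ∃ w, ι w = X) (hσ : ∀ g w, ι (σ g w) = ad ρ g (ι w)) {U : Subgroup G}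
    (hU : IsPGroup p U) (hU1 : U ≠ ⊥) (w : W) (hw : w ≠ 0)
    (hfix : ∀ v : W, (∀ u ∈ U, σ u v = v) ↔ ∃ c : K, v = c • w) :
    ∃ z ∈ U, ∃ a : Module.End K V, a ≠ 0 ∧ a * a = 0 ∧ ρ z = 1 + a ∧
      (∀ b : G, ∀ c : K, σ b w = c • w → ad ρ b a = c • a) ∧
      ∃ v0 v1 : V, v0 ≠ 0 ∧ B v0 v0 = 0 ∧ B v0 v1 = 0 ∧ B v1 v0 = 0 ∧ B v1 v1 = 0 ∧ a = wd B v0 v1 := by
  have hw0 : ι w ≠ 0 := fun h => hw (hι (by rw [h, map_zero]))
  obtain ⟨v0, v1, hv0, h00, h01, h10, h11, hwd, hz⟩ := ext_so (w0 := ι w) hp h4 hs hn hρ hinj hU (by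
    intro X
    constructor
    · rintro ⟨hX, hXf⟩
      obtain ⟨x, rfl⟩ := (hr X).1 hX
      obtain ⟨c, hc⟩ := (hfix x).1 fun u hu => hι (by rw [hσ, hXf u hu])
      exact ⟨c, by rw [hc, map_smul]⟩
    · rintro ⟨c, rfl⟩
      rw [← map_smul]
      refine ⟨(hr _).2 ⟨_, rfl⟩, fun u hu => ?_⟩
      rw [← hσ, (hfix (c • w)).2 ⟨c, rfl⟩ u hu])
  have hntU : Nontrivial U := (Subgroup.nontrivial_iff_ne_bot U).2 hU1
  have hntZ := hU.center_nontrivial
  obtain ⟨⟨z, hzc⟩, hz1⟩ := exists_ne (1 : Subgroup.center U)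
  obtain ⟨c, hc0, hc⟩ := hz z z.2 (fun h => hz1 (Subtype.ext (Subtype.ext h))) (fun u hu =>
    congrArg Subtype.val (Subgroup.mem_center_iff.1 hzc ⟨u, hu⟩))
  have hsq : ι w * ι w = 0 := by rw [hwd, wd_mul_self h00 h01 h10 h11]
  refine ⟨z, z.2, c • ι w, smul_ne_zero hc0 hw0, by rw [smul_mul_smul_comm, hsq, smul_zero], hc, ?_,
    v0, c • v1, hv0, h00, by rw [map_smul, h01, smul_zero], by
    rw [map_smul, LinearMap.smul_apply, h10, smul_zero], by
    rw [map_smul, map_smul, LinearMap.smul_apply, h11, smul_zero, smul_zero], by rw [wd_smul, hwd]⟩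
  intro b d hb
  rw [map_smul, ← hσ, hb, map_smul, smul_comm]

end main

end Cfsg.Agent.H16.BR
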